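import Cfsg.Agent.H984.SLMain
import Cfsg.Agent.H984.SLCyc
import Cfsg.Agent.Characters.Counting
import Cfsg.Agent.H597.Base
import Cfsg.Agent.S0898

/-!
# Characters of `SL₂(32)` and `PSL₂(32)` on the non-split torus

`T1` : for `x` of order `11` in `PSL₂(32)` and an irreducible character `χ`, the sum of the
`χ (x ^ i)`, `i < 11`, is at most `33` (the fixed space of `x` has dimension at most `3`).
-/

set_option autoImplicit false
set_option linter.unusedSectionVars false

namespace Cfsg.Agent.H597.L232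

open Matrix Cfsg Cfsg.Agent.H984.EigCount Cfsg.Agent.H984.SLTwo
open scoped ComplexConjugate

variable {F : Type*} [Field F] [DecidableEq F] [Fintype F]

local notation "SL" => Matrix.SpecialLinearGroup (Fin 2) F
local notation "M₂" => Matrix (Fin 2) (Fin 2) F

theorem two_eq_zero (h2 : ringChar F = 2) : (2 : F) = 0 := by
  have := ringChar.Nat.cast_ringChar (R := F)
  rw [h2] at this
  exact_mod_cast this

theorem tr_ne_zero_of_ell (h2 : ringChar F = 2) {g : SL} (hg : Ell (g : M₂)) : tr (g : M₂) ≠ 0 := by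
  have h := hg.no_root 1
  have h3 := two_eq_zero h2
  intro h0
  apply h
  rw [h0]
  linear_combination h3

/-- Every element without eigenvector is conjugate to an element of the torus. -/
theorem exists_conj_mem (h2 : ringChar F = 2) {g c : SL} (hg : Ell (g : M₂)) (hc : Ell (c : M₂)) :
    ∃ k ∈ Subgroup.centralizer ({g} : Set SL), IsConj k c ∧ NS (k : M₂) := by
  classical
  set C := Subgroup.centralizer ({g} : Set SL) with hC
  have hcard : Nat.card C = Fintype.card F + 1 := card_cent_ell g hg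
  have hn : 0 < Fintype.card F + 1 := Nat.succ_pos _
  have : Fintype C := Fintype.ofFinite C
  have hcard' : Fintype.card C = Fintype.card F + 1 := by
    rw [← hcard, Nat.card_eq_fintype_card (α := C)]
  have hsurj : ∀ z ∈ Polynomial.nthRootsFinset (Fintype.card F + 1) (1 : AlgebraicClosure F),
      ∃ k ∈ (Finset.univ : Finset C), mu g hg k = z := by
    intro z hz
    obtain ⟨k, hk, hz'⟩ := Finset.surj_on_of_inj_on_of_card_le
      (s := (Finset.univ : Finset C))
      (t := Polynomial.nthRootsFinset (Fintype.card F + 1) (1 : AlgebraicClosure F))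
      (fun k _ => mu g hg k)
      (fun k _ => by
        rw [Polynomial.mem_nthRootsFinset hn, ← map_pow, ← hcard, pow_card_eq_one', map_one])
      (fun a b _ _ hab => mu_injective g hg hab)
      (by
        rw [Finset.card_univ, hcard', Polynomial.nthRootsFinset_def]
        exact (Multiset.toFinset_card_le _).trans (Polynomial.card_nthRoots _ _))
      z hz
    exact ⟨k, hk, hz'.symm⟩
  have hcm : c ∈ Subgroup.centralizer ({c} : Set SL) := Subgroup.mem_centralizer_singleton_iff.2 rfl
  have hz : mu c hc ⟨c, hcm⟩ ∈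
      Polynomial.nthRootsFinset (Fintype.card F + 1) (1 : AlgebraicClosure F) := by
    rw [Polynomial.mem_nthRootsFinset hn, ← map_pow, ← card_cent_ell c hc, pow_card_eq_one', map_one]
  obtain ⟨k, -, hk⟩ := hsurj _ hz
  have h1 := mu_add_inv g hg k
  have h2' := mu_add_inv c hc ⟨c, hcm⟩
  have h3 : mu g hg k⁻¹ = mu c hc (⟨c, hcm⟩⁻¹) := by
    have e1 : mu g hg k * mu g hg k⁻¹ = 1 := by rw [← map_mul, mul_inv_cancel, map_one]
    have e2 : mu c hc ⟨c, hcm⟩ * mu c hc (⟨c, hcm⟩⁻¹) = 1 := by
      rw [← map_mul, mul_inv_cancel, map_one]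
    rw [hk] at e1
    have h0 : mu c hc ⟨c, hcm⟩ ≠ 0 := left_ne_zero_of_mul_eq_one e1
    exact mul_left_cancel₀ h0 (e1.trans e2.symm)
  rw [hk, h3, h2'] at h1
  have htr : tr ((k : SL) : M₂) = tr (c : M₂) :=
    ((algebraMap F (AlgebraicClosure F)).injective h1).symm
  have hNS : NS ((k : SL) : M₂) := by
    by_contra hns
    apply tr_ne_zero_of_ell h2 hc
    rw [← htr]
    rcases scalar_cases hns with h | h
    · rw [h, tr_upp (by simp)]
      simp [two_eq_zero h2]
    · rw [h, tr_upp (by simp)]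
      simp [two_eq_zero h2]
  exact ⟨k, k.2, isConj_of_tr hNS hc.NS htr (Or.inl h2), hNS⟩

/-- In characteristic two every element is `1`, unipotent, split or in a torus. -/
theorem elt_cases (h2 : ringChar F = 2) {g : SL} (hg : Ell (g : M₂)) (c : SL) :
    (∃ (a : Fˣ) (x : F), IsConj (upp a x) c) ∨
      ∃ k ∈ Subgroup.centralizer ({g} : Set SL), IsConj k c ∧ NS (k : M₂) := by
  by_cases hc : Ell (c : M₂)
  · exact Or.inr (exists_conj_mem h2 hg hc)
  · left
    unfold Ell at hc
    push Not at hc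
    obtain ⟨a, v, hv, h⟩ := hc
    have h1 := (conj_col (withCol v hv 0) c a).mpr (by rw [col_withCol]; exact h)
    have hB : (withCol v hv 0)⁻¹ * c * withCol v hv 0 ∈ Bor F := mem_Bor.mpr h1.1
    have hx := exists_upp hB
    exact ⟨Units.mk0 _ (ne_zero_of_mem_Bor hB), _, isConj_iff.2 ⟨withCol v hv 0, by
      rw [← hx]; group⟩⟩

/-- The induced character of the trivial character of the torus. -/
theorem I_one_eq (h2 : ringChar F = 2) {g : SL} (hg : Ell (g : M₂)) (c : SL) :
    I (1 : Subgroup.centralizer ({g} : Set SL) →* ℂˣ) c =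
      R (1 : MulChar F ℂ) c * (R (1 : MulChar F ℂ) c - 3) + 2 := by
  have hcl : ∀ {x y : SL}, IsConj x y → ∀ f : SL → ℂ, IsClassFunction SL f → f y = f x :=
    fun h f hf => Cfsg.Agent.Characters.Core.classFunction_apply_eq hf h.symm
  rcases elt_cases h2 hg c with ⟨a, x, h⟩ | ⟨k, hk, h, hNS⟩
  · rw [hcl h _ (isClassFunction_I _), hcl h _ (isClassFunction_R _)]
    by_cases ha : a⁻¹ = a
    · have h1 : (1 : MulChar F ℂ) (a : F) = 1 := MulChar.one_apply_coe a
      by_cases hx : x = 0
      · subst hx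
        rw [I_scalar hg _ (not_NS_upp ha), R_upp_zero _ ha, h1, MonoidHom.one_apply, Units.val_one]
        ring
      · rw [I_not_ell hg _ (not_ell_upp a x) (NS_upp a hx), R_upp_ne _ ha hx, h1]
        norm_num
    · have h1 : (1 : MulChar F ℂ) (a : F) = 1 := MulChar.one_apply_coe a
      have h3 : (1 : MulChar F ℂ) ((a⁻¹ : Fˣ) : F) = 1 := MulChar.one_apply_coe a⁻¹
      rw [I_not_ell hg _ (not_ell_upp a x) (NS_upp_split ha x), R_upp_split _ ha, h1, h3]
      norm_num
  · rw [hcl h _ (isClassFunction_I _), hcl h _ (isClassFunction_R _), I_ell hg _ hk hNS,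
      R_ell _ (ell_of_mem_cent hg hk hNS)]
    simp
    norm_num

theorem unit_eq_one (h2 : ringChar F = 2) {a : Fˣ} (ha : a⁻¹ = a) : a = 1 := by
  rcases inv_eq_self_cases ha with h | h
  · exact h
  · rw [h]
    apply Units.ext
    rw [Units.val_neg, Units.val_one]
    linear_combination (-1 : F) * two_eq_zero h2

/-- The norm of the restriction of a cuspidal character to the torus. -/
theorem torus_norm (h2 : ringChar F = 2) {g : SL} (hg : Ell (g : M₂)) {χ : SL → ℂ}
    (hχ : IsIrrCharacter SL χ) (h0 : ∀ β : MulChar F ℂ, classInner χ (R β) = 0)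
    [Fintype (Subgroup.centralizer ({g} : Set SL))] :
    ((Fintype.card F : ℂ) + 1)⁻¹ *
      ∑ c : Subgroup.centralizer ({g} : Set SL), χ c * conj (χ c) =
      (χ 1 * conj (χ 1)) * ((Fintype.card F : ℂ) - 3) / ((Fintype.card F : ℂ) - 1) ^ 2 + 2 := by
  have hcl := Cfsg.Agent.Characters.Core.isIrr_isClassFunction hχ
  set q : ℂ := (Fintype.card F : ℂ) with hq
  let f : SL → ℂ := fun x => χ x * conj (χ x)
  have hf : IsClassFunction SL f := fun x y => by
    simp only [f]
    rw [hcl x y]
  have hconjf : ∀ x, conj (f x) = f x := fun x => by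
    simp only [f, map_mul, Complex.conj_conj]
    ring
  have h1 := classInner_I hg (1 : Subgroup.centralizer ({g} : Set SL) →* ℂˣ) f hf
  simp only [MonoidHom.one_apply, Units.val_one, one_mul, hconjf] at h1
  change _ = (q + 1)⁻¹ * ∑ c : Subgroup.centralizer ({g} : Set SL), χ c * conj (χ c) at h1
  rw [← h1]
  -- the values on the Borel subgroup
  have hjac : ∀ a, jac χ a = 0 := jac_eq_zero hcl h0
  have hsplit : ∀ {a : Fˣ}, a⁻¹ ≠ a → ∀ x, f (upp a x) = 0 := by
    intro a ha x
    simp only [f]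
    rw [apply_split hcl ha, hjac, zero_mul]
  have hu : ∀ x : F, x ≠ 0 → χ (upp 1 x) = χ (upp 1 1) := by
    intro x hx
    apply Cfsg.Agent.Characters.Core.classFunction_apply_eq hcl
    rw [isConj_upp_iff hx one_ne_zero]
    exact FiniteField.isSquare_of_char_two h2 _
  have hsum : χ 1 + (q - 1) * χ (upp 1 1) = 0 := by
    have h3 := sum_upp χ 1
    rw [hjac, mul_zero, ← Finset.add_sum_erase _ _ (Finset.mem_univ (0 : F)), upp_one_zero,
      Finset.sum_congr rfl (g := fun _ => χ (upp 1 1)) (fun x hx => hu x (Finset.mem_erase.mp hx).1),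
      Finset.sum_const, Finset.card_erase_of_mem (Finset.mem_univ _), Finset.card_univ, nsmul_eq_mul,
      cast_card_sub_one] at h3
    exact h3
  have hq1 : q - 1 ≠ 0 := card_sub_one_ne
  have hq0 : q ≠ 0 := card_ne
  have hu1 : χ (upp 1 1) = - χ 1 / (q - 1) := by
    rw [eq_div_iff hq1]
    linear_combination hsum
  let h : SL → ℂ := fun x => conj (R (1 : MulChar F ℂ) x - 3) * f x
  have hh : IsClassFunction SL h := fun x y => by
    simp only [h]
    rw [isClassFunction_R _ x y, hf x y]
  have hI : classInner (I (1 : Subgroup.centralizer ({g} : Set SL) →* ℂˣ)) f =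
      classInner (R (1 : MulChar F ℂ)) h + 2 * classInner χ χ := by
    rw [Cfsg.Agent.Characters.Core.classInner_def, Cfsg.Agent.Characters.Core.classInner_def,
      Cfsg.Agent.Characters.Core.classInner_def, mul_left_comm, ← mul_add]
    congr 1
    rw [Finset.mul_sum, ← Finset.sum_add_distrib]
    refine Finset.sum_congr rfl fun x _ => ?_
    rw [I_one_eq h2 hg, hconjf]
    simp only [h, map_mul, Complex.conj_conj, hconjf]
    simp only [f]
    ring
  rw [hI, Cfsg.Agent.Characters.Core.classInner_irr_self hχ, classInner_R _ _ hh]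
  have hconj : ∀ x : SL, conj (h x) = (R (1 : MulChar F ℂ) x - 3) * f x := fun x => by
    simp only [h, map_mul, Complex.conj_conj, hconjf]
  simp only [MulChar.one_apply_coe, one_mul, hconj]
  rw [← Finset.add_sum_erase _ _ (Finset.mem_univ (1 : Fˣ)), Finset.sum_eq_zero (s := Finset.univ.erase 1)
    (fun a ha => Finset.sum_eq_zero fun x _ => by
      rw [hsplit (fun h => (Finset.mem_erase.mp ha).1 (unit_eq_one h2 h)), mul_zero]), add_zero,
    ← Finset.add_sum_erase _ _ (Finset.mem_univ (0 : F)),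
    Finset.sum_congr rfl (g := fun _ => (1 - 3) * (χ (upp 1 1) * conj (χ (upp 1 1)))) (fun x hx => by
      rw [R_upp_ne _ inv_one (Finset.mem_erase.mp hx).1]
      simp only [f]
      rw [hu x (Finset.mem_erase.mp hx).1, Units.val_one, MulChar.map_one]),
    Finset.sum_const, Finset.card_erase_of_mem (Finset.mem_univ _), Finset.card_univ, nsmul_eq_mul,
    cast_card_sub_one, R_upp_zero _ inv_one, Units.val_one, MulChar.map_one, hu1]
  simp only [f]
  rw [upp_one_zero]
  have hqq : conj q = q := by rw [hq]; simp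
  simp only [map_div₀, map_neg, map_sub, map_one, hqq]
  rw [← hq]
  field_simp
  ring

/-! ### Arithmetic -/

theorem le_one_of_sums {ι : Type*} [Fintype ι] (m : ι → ℕ) (hι : Fintype.card ι = 33)
    (h : 961 * ∑ i, m i ^ 2 = 29 * (∑ i, m i) ^ 2 + 1922) (i : ι) : m i ≤ 1 := by
  have h31 : 31 ∣ ∑ i, m i := by
    have h1 : 31 ∣ 29 * (∑ i, m i) ^ 2 := by
      have h2 : 31 ∣ 29 * (∑ i, m i) ^ 2 + 1922 := by
        rw [← h]
        exact Dvd.dvd.mul_right (by norm_num) _
      exact (Nat.dvd_add_left (by norm_num)).1 h2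
    have hp : Nat.Prime 31 := by norm_num
    rcases hp.dvd_mul.1 h1 with h2 | h2
    · norm_num at h2
    · exact hp.dvd_of_dvd_pow h2
  obtain ⟨e, he⟩ := h31
  have hM : ∑ i, m i ^ 2 = 29 * e ^ 2 + 2 := by
    rw [he] at h
    have : 961 * ∑ i, m i ^ 2 = 961 * (29 * e ^ 2 + 2) := by
      rw [h]
      ring
    exact Nat.eq_of_mul_eq_mul_left (by norm_num) this
  have hsq : ∑ i, ((m i : ℤ) - e) ^ 2 = 2 := by
    have h1 : ∑ i, ((m i : ℤ) - e) ^ 2 = ∑ i, (m i : ℤ) ^ 2 - 2 * e * ∑ i, (m i : ℤ) +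
        (Fintype.card ι : ℤ) * e ^ 2 := by
      rw [Finset.mul_sum, ← Finset.sum_sub_distrib, ← nsmul_eq_mul, ← Finset.card_univ,
        ← Finset.sum_const, ← Finset.sum_add_distrib]
      exact Finset.sum_congr rfl fun i _ => by ring
    have h2 : ∑ i, (m i : ℤ) ^ 2 = 29 * e ^ 2 + 2 := by exact_mod_cast hM
    have h3 : ∑ i, (m i : ℤ) = 31 * e := by exact_mod_cast he
    rw [h1, h2, h3, hι]
    push_cast
    ring
  have hlin : ∑ i, ((m i : ℤ) - e) = - 2 * e := by
    rw [Finset.sum_sub_distrib, Finset.sum_const, Finset.card_univ, hι]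
    have h3 : ∑ i, (m i : ℤ) = 31 * e := by exact_mod_cast he
    rw [h3, nsmul_eq_mul]
    push_cast
    ring
  have he1 : e ≤ 1 := by
    have h1 : 0 ≤ ∑ i, (((m i : ℤ) - e) ^ 2 + ((m i : ℤ) - e)) := by
      refine Finset.sum_nonneg fun i _ => ?_
      rcases le_or_gt 0 ((m i : ℤ) - e) with h | h
      · positivity
      · nlinarith
    rw [Finset.sum_add_distrib, hsq, hlin] at h1
    omega
  have hle : ∀ j, m j ≤ m j ^ 2 := fun j => by
    rcases Nat.eq_zero_or_pos (m j) with h | h
    · simp [h]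
    · nlinarith
  rcases Nat.le_one_iff_eq_zero_or_eq_one.1 he1 with h0 | h1
  · subst h0
    have h2 := Finset.single_le_sum (f := m) (fun _ _ => Nat.zero_le _) (Finset.mem_univ i)
    rw [he] at h2
    omega
  · subst h1
    by_contra hcon
    have hlt : ∑ i, m i < ∑ i, m i ^ 2 := by
      refine Finset.sum_lt_sum (fun j _ => hle j) ⟨i, Finset.mem_univ _, ?_⟩
      nlinarith
    rw [he, hM] at hlt
    omega

/-! ### Abelian groups -/

section abelian

variable {C : Type*} [Group C] [Finite C] [Fintype (IrrCharacter C)]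

open Classical in
theorem sum_linear (hC : ∀ a b : C, a * b = b * a) (ψ : IrrCharacter C) (x : C) :
    ∑ i ∈ Finset.range (orderOf x), (ψ : C → ℂ) (x ^ i) =
      if (ψ : C → ℂ) x = 1 then (orderOf x : ℂ) else 0 := by
  obtain ⟨f, hf⟩ := Characters.Linear.exists_hom_of_isIrrCharacter ψ.2
    (S0898.irr_one_of_comm hC ψ.2)
  have h1 : ∀ i, (ψ : C → ℂ) (x ^ i) = ((ψ : C → ℂ) x) ^ i := by
    intro i
    rw [hf]
    simp
  rw [Finset.sum_congr rfl fun i _ => h1 i]
  split_ifs with h
  · simp [h]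
  · have h2 := geom_sum_mul ((ψ : C → ℂ) x) (orderOf x)
    rw [← h1, pow_orderOf_eq_one, S0898.irr_one_of_comm hC ψ.2, sub_self] at h2
    exact (mul_eq_zero.1 h2).resolve_right (sub_ne_zero.2 h)

open Classical in
theorem card_ker (hC : ∀ a b : C, a * b = b * a) (x : C) :
    orderOf x * (Finset.univ.filter fun ψ : IrrCharacter C => (ψ : C → ℂ) x = 1).card =
      Nat.card C := by
  have h1 : ∑ ψ : IrrCharacter C, ∑ i ∈ Finset.range (orderOf x), (ψ : C → ℂ) (x ^ i) =
      (orderOf x : ℂ) * ((Finset.univ.filter fun ψ : IrrCharacter C => (ψ : C → ℂ) x = 1).card : ℂ) := by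
    rw [Finset.sum_congr rfl fun ψ _ => sum_linear hC ψ x, ← Finset.sum_filter, Finset.sum_const,
      nsmul_eq_mul, mul_comm]
  have h2 : ∀ i ∈ Finset.range (orderOf x), ∑ ψ : IrrCharacter C, (ψ : C → ℂ) (x ^ i) =
      if i = 0 then (Nat.card C : ℂ) else 0 := by
    intro i hi
    have h3 := Characters.Counting.sum_irr_one_mul (x ^ i)
    rw [Finset.sum_congr rfl fun ψ _ => by rw [S0898.irr_one_of_comm hC ψ.2, one_mul]] at h3
    rw [h3]
    have h4 : x ^ i = 1 ↔ i = 0 := by
      constructor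
      · intro h
        by_contra h0
        exact pow_ne_one_of_lt_orderOf h0 (Finset.mem_range.1 hi) h
      · rintro rfl
        simp
    simp only [h4]
  rw [Finset.sum_comm, Finset.sum_congr rfl h2, Finset.sum_ite_eq' (Finset.range (orderOf x)) 0,
    if_pos (Finset.mem_range.2 (orderOf_pos x))] at h1
  exact_mod_cast h1.symm

end abelian

theorem ringChar_eq_two (hF : Fintype.card F = 32) : ringChar F = 2 := by
  obtain ⟨n, hp, hn⟩ := FiniteField.card F (ringChar F)
  rw [hF] at hn
  have h1 : ringChar F ∣ 2 ^ 5 := by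
    have : (2 : ℕ) ^ 5 = 32 := by norm_num
    rw [this, hn]
    exact dvd_pow_self _ n.ne_zero
  exact (Nat.prime_dvd_prime_iff_eq hp Nat.prime_two).1 (hp.dvd_of_dvd_pow h1)

/-- The statement for `SL₂(32)`. -/
theorem sl (hF : Fintype.card F = 32) {χ : SL → ℂ} (hχ : IsIrrCharacter SL χ) {g : SL}
    (hg : orderOf g = 11) : (∑ i ∈ Finset.range 11, χ (g ^ i)).re ≤ 33 := by
  classical
  have h2 := ringChar_eq_two hF
  have hEll : Ell (g : M₂) := by
    by_contra h
    have h1 := orderOf_dvd_of_not_ell h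
    rw [hg, hF] at h1
    norm_num at h1
  have hgm : ∀ i, g ^ i ∈ Subgroup.centralizer ({g} : Set SL) := fun i =>
    Subgroup.mem_centralizer_singleton_iff.2 (Commute.pow_self g i)
  have hNS : ∀ i ∈ Finset.range 11, i ≠ 0 → NS ((g ^ i : SL) : M₂) := by
    intro i hi h0
    by_contra h
    have h1 : g ^ i = 1 := by
      rcases scalar_cases h with h | h
      · rw [h, upp_one_zero]
      · have h3 : (-1 : Fˣ) = 1 := unit_eq_one h2 (by simp)
        rw [h, h3, upp_one_zero]
    exact pow_ne_one_of_lt_orderOf h0 (by rw [hg]; exact Finset.mem_range.1 hi) h1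
  have hEll' : ∀ i ∈ Finset.range 11, i ≠ 0 → Ell ((g ^ i : SL) : M₂) := fun i hi h0 =>
    ell_of_mem_cent hEll (hgm i) (hNS i hi h0)
  have hR1 : ∀ α : MulChar F ℂ, R α (1 : SL) = 33 := by
    intro α
    rw [← upp_one_zero, R_upp_zero α inv_one, Units.val_one, MulChar.map_one, hF]
    norm_num
  -- sums of functions constant on the elements different from one
  have hconst : ∀ (f : SL → ℂ) (c : ℂ), (∀ i ∈ Finset.range 11, i ≠ 0 → f (g ^ i) = c) →
      ∑ i ∈ Finset.range 11, f (g ^ i) = f 1 + 10 * c := by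
    intro f c hf
    rw [← Finset.add_sum_erase _ _ (Finset.mem_range.2 (by norm_num : 0 < 11)), pow_zero,
      Finset.sum_congr rfl (g := fun _ => c) (fun i hi =>
        hf i (Finset.mem_of_mem_erase hi) (Finset.ne_of_mem_erase hi)), Finset.sum_const,
      Finset.card_erase_of_mem (Finset.mem_range.2 (by norm_num : 0 < 11)), Finset.card_range,
      nsmul_eq_mul]
    norm_num
  rcases irr_cases hχ with ⟨α, -, rfl⟩ | rfl | rfl | ⟨α, hα, hα1, -⟩ | h0
  · rw [hconst _ 0 (fun i hi h => R_ell α (hEll' i hi h)), hR1]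
    norm_num
  · simp
    norm_num
  · have h3 := hconst (fun x => R (1 : MulChar F ℂ) x - 1) (-1) (fun i hi h => by
      rw [R_ell _ (hEll' i hi h)]
      norm_num)
    rw [h3, hR1]
    norm_num
  · exfalso
    apply hα1
    have h3 : α ^ 2 = 1 := by
      rw [pow_two]
      nth_rewrite 1 [← hα]
      exact inv_mul_cancel α
    have h4 : α ^ 31 = 1 := by
      have := MulChar.pow_card_eq_one α
      rwa [Fintype.card_units, hF] at this
    have h5 : α ^ 31 = α := by
      have : α ^ 31 = (α ^ 2) ^ 15 * α := by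
        rw [← pow_mul, ← pow_succ]
      rw [this, h3, one_pow, one_mul]
    rw [← h5, h4]
  · -- cuspidal characters
    set C := Subgroup.centralizer ({g} : Set SL) with hCdef
    have hcyc : IsCyclic C := isCyclic_cent g hEll
    have hcomm : ∀ a b : C, a * b = b * a := fun a b =>
      (IsCyclic.isMulCommutative (α := C)).is_comm.comm a b
    have hcard : Nat.card C = 33 := by
      rw [hCdef, card_cent_ell g hEll, hF]
    have := Fintype.ofFinite C
    have := Characters.Core.finite_irr (G := C)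
    have := Fintype.ofFinite (IrrCharacter C)
    have hres : IsCharacter C (fun c : C => χ c) :=
      Characters.Core.isCharacter_comp C.subtype (Characters.Core.isIrr_isCharacter hχ)
    obtain ⟨m, hm⟩ := Characters.Core.exists_nat_comb hres
    have hone : ∀ ψ : IrrCharacter C, (ψ : C → ℂ) 1 = 1 := fun ψ => S0898.irr_one_of_comm hcomm ψ.2
    have hι : Fintype.card (IrrCharacter C) = 33 := by
      have h3 := Characters.Counting.sum_irr_one_mul (1 : C)
      simp only [hone, mul_one, if_true, Finset.sum_const, Finset.card_univ, nsmul_eq_mul] at h3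
      rw [hcard] at h3
      exact_mod_cast h3
    have hd : χ 1 = ((∑ ψ, m ψ : ℕ) : ℂ) := by
      have h3 := congrFun hm 1
      simp only [Finset.sum_apply, nsmul_eq_mul, Pi.mul_apply, Pi.natCast_apply, hone,
        mul_one] at h3
      push_cast
      exact h3
    have hnorm : classInner (fun c : C => χ c) (fun c : C => χ c) = ((∑ ψ, m ψ ^ 2 : ℕ) : ℂ) := by
      have h3 := Characters.Core.classInner_sum_smul_sum_smul (G := C) (fun ψ => (m ψ : ℂ))
        (fun ψ => (m ψ : ℂ))
      have h4 : ∑ ψ : IrrCharacter C, (m ψ : ℂ) • (ψ : C → ℂ) = fun c : C => χ c := by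
        rw [hm]
        exact Finset.sum_congr rfl fun ψ _ => Nat.cast_smul_eq_nsmul ℂ _ _
      rw [h4] at h3
      rw [h3]
      push_cast
      refine Finset.sum_congr rfl fun ψ _ => ?_
      rw [Complex.conj_natCast, pow_two]
    have hT := torus_norm h2 hEll hχ h0
    have hT' : ((∑ ψ, m ψ ^ 2 : ℕ) : ℂ) = (((∑ ψ, m ψ : ℕ) : ℂ) * ((∑ ψ, m ψ : ℕ) : ℂ)) * 29 / 961 + 2 := by
      rw [← hnorm, Characters.Core.classInner_def, hcard]
      rw [hF, hd, Complex.conj_natCast] at hT
      have e1 : ((32 : ℕ) : ℂ) + 1 = ((33 : ℕ) : ℂ) := by norm_num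
      have e2 : ((32 : ℕ) : ℂ) - 3 = 29 := by norm_num
      have e3 : (((32 : ℕ) : ℂ) - 1) ^ 2 = 961 := by norm_num
      rw [e1, e2, e3] at hT
      exact hT
    have hle := le_one_of_sums m hι (by
      have h3 : (961 : ℂ) * ((∑ ψ, m ψ ^ 2 : ℕ) : ℂ) = 29 * ((∑ ψ, m ψ : ℕ) : ℂ) ^ 2 + 1922 := by
        rw [hT']
        ring
      exact_mod_cast h3)
    have hx : orderOf (⟨g, by simpa using hgm 1⟩ : C) = 11 := by rw [Subgroup.orderOf_mk, hg]
    set x : C := ⟨g, by simpa using hgm 1⟩ with hxdef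
    have hsum : ∑ i ∈ Finset.range 11, χ (g ^ i) =
        ((∑ ψ ∈ Finset.univ.filter (fun ψ : IrrCharacter C => (ψ : C → ℂ) x = 1), m ψ * 11 : ℕ) : ℂ) := by
      have h3 : ∀ i, χ (g ^ i) = ∑ ψ : IrrCharacter C, (m ψ : ℂ) * (ψ : C → ℂ) (x ^ i) := by
        intro i
        have h4 := congrFun hm (x ^ i)
        simp only [Finset.sum_apply, nsmul_eq_mul, Pi.mul_apply, Pi.natCast_apply] at h4
        exact h4
      rw [Finset.sum_congr rfl fun i _ => h3 i, Finset.sum_comm]
      have h5 : ∀ ψ : IrrCharacter C, ∑ i ∈ Finset.range 11, (m ψ : ℂ) * (ψ : C → ℂ) (x ^ i) =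
          if (ψ : C → ℂ) x = 1 then (m ψ : ℂ) * 11 else 0 := by
        intro ψ
        rw [← Finset.mul_sum]
        have h6 := sum_linear hcomm ψ x
        rw [hx] at h6
        rw [h6, mul_ite, mul_zero]
        norm_num
      rw [Finset.sum_congr rfl fun ψ _ => h5 ψ, ← Finset.sum_filter]
      push_cast
      rfl
    have hk := card_ker hcomm x
    rw [hx, hcard] at hk
    have h3 : (Finset.univ.filter (fun ψ : IrrCharacter C => (ψ : C → ℂ) x = 1)).card = 3 := by omega
    have h4 : ∑ ψ ∈ Finset.univ.filter (fun ψ : IrrCharacter C => (ψ : C → ℂ) x = 1), m ψ * 11 ≤ 33 := by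
      have := Finset.sum_le_card_nsmul
        (Finset.univ.filter (fun ψ : IrrCharacter C => (ψ : C → ℂ) x = 1)) (fun ψ => m ψ * 11) 11
        (fun ψ _ => by have := hle ψ; omega)
      rw [h3] at this
      exact this
    rw [hsum, Complex.natCast_re]
    exact_mod_cast h4

theorem T1 {F : Type*} [Field F] [Fintype F] (hF : Fintype.card F = 32)
    {χ : Matrix.ProjectiveSpecialLinearGroup (Fin 2) F → ℂ}
    (hχ : Cfsg.IsIrrCharacter (Matrix.ProjectiveSpecialLinearGroup (Fin 2) F) χ)
    {x : Matrix.ProjectiveSpecialLinearGroup (Fin 2) F} (hx : orderOf x = 11) :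
    (∑ i ∈ Finset.range 11, χ (x ^ i)).re ≤ 33 := by
  classical
  have h2 := ringChar_eq_two hF
  let π : Matrix.SpecialLinearGroup (Fin 2) F →* Matrix.ProjectiveSpecialLinearGroup (Fin 2) F :=
    QuotientGroup.mk' _
  have hπ : Function.Surjective π := QuotientGroup.mk'_surjective _
  have hinj : Function.Injective π := by
    rw [← MonoidHom.ker_eq_bot_iff]
    rw [QuotientGroup.ker_mk']
    rw [eq_bot_iff]
    intro z hz
    rw [Subgroup.mem_bot]
    rcases scalar_cases (not_NS_of_mem_center hz) with h | h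
    · rw [h, upp_one_zero]
    · have h3 : (-1 : Fˣ) = 1 := unit_eq_one h2 (by simp)
      rw [h, h3, upp_one_zero]
  obtain ⟨g, rfl⟩ := hπ x
  have hg : orderOf g = 11 := by rw [← hx, orderOf_injective π hinj]
  have h3 := sl hF (Characters.Core.isIrr_comp π hπ hχ) hg
  simpa only [map_pow, Function.comp] using h3

end Cfsg.Agent.H597.L232
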