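import Cfsg.Agent.H597.MeetShift
import Cfsg.Agent.ClassicalGeometry.SLTwoFour
import Cfsg.Agent.GTwoOdd.CentPSL

/-!
# `MeetIn 2` for `PSL_2(q)` and `PSL_3(q)`, `q` odd (S5760, task 1917)
-/

set_option autoImplicit false

namespace Cfsg.Agent.H597.MeetZ

open Subgroup Cfsg.Agent.H68.MeetB Matrix Polynomial

section two

variable {F : Type*} [Field F] [Fintype F]

theorem two_ne_zero_of_odd (h : Odd (Fintype.card F)) : (2 : F) ≠ 0 := by
  intro h2
  have h3 : CharP F 2 := CharTwo.of_one_ne_zero_of_two_eq_zero one_ne_zero h2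
  obtain ⟨k, -, hk⟩ := FiniteField.card F 2
  rw [hk] at h
  exact (Nat.not_even_iff_odd.2 h) (Nat.even_pow.2 ⟨even_two, k.2.ne'⟩)

omit [Fintype F] in
/-- an element of `SL₂` which is not scalar -/
theorem mk_ne_one {ι : Type*} [Fintype ι] [DecidableEq ι] {Y : SpecialLinearGroup ι F}
    (h : ∀ c : F, mt Y ≠ c • (1 : Matrix ι ι F)) : (QuotientGroup.mk Y : ProjectiveSpecialLinearGroup ι F) ≠ 1 := by
  intro h1
  obtain ⟨c, -, hc⟩ := mem_center.1 ((QuotientGroup.eq_one_iff _).1 h1)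
  exact h c hc

/-- an odd Sylow centraliser in `PSL₂` -/
theorem exists_H (h : Odd (Fintype.card F)) {z : SpecialLinearGroup (Fin 2) F}
    (hzz : (QuotientGroup.mk (z * z) : ProjectiveSpecialLinearGroup (Fin 2) F) = 1)
    (hz1 : (QuotientGroup.mk z : ProjectiveSpecialLinearGroup (Fin 2) F) ≠ 1) :
    ∃ H : Subgroup (ProjectiveSpecialLinearGroup (Fin 2) F), ¬ 2 ∣ H.index ∧
      ∀ h ∈ H, (QuotientGroup.mk z : ProjectiveSpecialLinearGroup (Fin 2) F) * h = h * QuotientGroup.mk z := by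
  have ho : orderOf (QuotientGroup.mk z : ProjectiveSpecialLinearGroup (Fin 2) F) = 2 := by
    refine orderOf_eq_prime ?_ hz1
    rw [pow_two, ← QuotientGroup.mk_mul, hzz]
  refine exists_of_isConj ?_ fun w hw => Cfsg.Agent.ClassicalGeometry.SLTwoFour.psl_isConj h w _ hw ho
  have h3 := orderOf_dvd_natCard (QuotientGroup.mk z : ProjectiveSpecialLinearGroup (Fin 2) F)
  rwa [ho] at h3

/-- the case `q ≡ 1 (mod 4)` -/
theorem meet_one (h : Odd (Fintype.card F)) {i : F} (hi : i * i = -1) :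
    MeetIn 2 (ProjectiveSpecialLinearGroup (Fin 2) F) := by
  have h2 := two_ne_zero_of_odd h
  have hi0 : i ≠ 0 := by
    rintro rfl
    rw [mul_zero] at hi
    exact one_ne_zero (neg_eq_zero.1 hi.symm)
  let z : SpecialLinearGroup (Fin 2) F := ⟨Matrix.diagonal ![i, -i], by
    rw [Matrix.det_diagonal, Fin.prod_univ_two]
    show i * -i = 1
    rw [mul_neg, hi, neg_neg]⟩
  have hz : mt z = Matrix.diagonal ![i, -i] := rfl
  have hzz : (QuotientGroup.mk (z * z) : ProjectiveSpecialLinearGroup (Fin 2) F) = 1 := by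
    refine mk_eq_one (c := -1) ?_
    rw [mt_mul, hz, Matrix.diagonal_mul_diagonal, Matrix.smul_one_eq_diagonal]
    congr 1
    funext j
    fin_cases j
    · exact hi
    · show -i * -i = -1
      rw [neg_mul_neg, hi]
  obtain ⟨H, hH, hHz⟩ := exists_H h hzz (mk_ne_one fun c hc => by
    rw [hz] at hc
    have h0 := congrFun (congrFun hc 0) 0
    have h1 := congrFun (congrFun hc 1) 1
    simp at h0 h1
    rw [← h0] at h1
    have h3 : 2 * i = 0 := by linear_combination -h1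
    exact (mul_ne_zero h2 hi0) h3)
  refine meet_of_diag h (Equiv.refl (Fin 2)) (by norm_num) (ε := ![i, -i]) ?_ hz hzz hH hHz
  intro x y hxy
  have hx := x.2
  have hy : y = 0 := Fin.ext (by show (y : ℕ) = 0; simp at hxy; omega)
  have hx1 : x = 1 := Fin.ext (by show (x : ℕ) = 1; simp at hxy; rw [hy] at hxy; simpa using hxy)
  rw [hx1, hy]
  rfl

/-- the case `q ≡ 3 (mod 4)` -/
theorem meet_three (h : Odd (Fintype.card F)) (h3 : Fintype.card F % 4 = 3) (h4 : 4 ≤ Fintype.card F) :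
    MeetIn 2 (ProjectiveSpecialLinearGroup (Fin 2) F) := by
  classical
  have h2 := two_ne_zero_of_odd h
  obtain ⟨g, hg⟩ := IsCyclic.exists_generator (α := Fˣ)
  have hgo : orderOf g = Fintype.card F - 1 := by
    rw [orderOf_eq_card_of_forall_mem_zpowers hg, Nat.card_units, Nat.card_eq_fintype_card]
  set a : F := (g : F) with ha
  have ha0 : a ≠ 0 := g.ne_zero
  have ha4 : a ^ 4 ≠ 1 := by
    intro h5
    have h6 : g ^ 4 = 1 := Units.ext (by rw [Units.val_pow_eq_pow_val, ← ha, h5, Units.val_one])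
    have h7 := Nat.le_of_dvd (by norm_num) (orderOf_dvd_of_pow_eq_one h6)
    rw [hgo] at h7
    omega
  have ha4' : a ^ 4 ≠ -1 := by
    intro h5
    have h6 : IsSquare (-1 : F) := ⟨a ^ 2, by rw [← h5]; ring⟩
    exact (FiniteField.isSquare_neg_one_iff.1 h6) h3
  let z : SpecialLinearGroup (Fin 2) F := ⟨!![0, 1; -1, 0], by rw [Matrix.det_fin_two]; simp⟩
  let x : SpecialLinearGroup (Fin 2) F := ⟨!![a, 0; 0, a⁻¹], by
    rw [Matrix.det_fin_two]; simp [ha0]⟩
  have hz : mt z = !![0, 1; -1, 0] := rfl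
  have hx : mt x = !![a, 0; 0, a⁻¹] := rfl
  have hzz : (QuotientGroup.mk (z * z) : ProjectiveSpecialLinearGroup (Fin 2) F) = 1 := by
    refine mk_eq_one (c := -1) ?_
    rw [mt_mul, hz]
    ext i j
    fin_cases i <;> fin_cases j <;> simp [Matrix.mul_apply, Fin.sum_univ_two]
  obtain ⟨H, hH, hHz⟩ := exists_H h hzz (mk_ne_one fun c hc => by
    rw [hz] at hc
    have h0 := congrFun (congrFun hc 0) 1
    simp at h0)
  have hzx : z * x = x⁻¹ * z := by
    rw [eq_inv_mul_iff_mul_eq]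
    apply Subtype.ext
    show mt (x * (z * x)) = mt z
    rw [mt_mul, mt_mul, hz, hx]
    ext i j
    fin_cases i <;> fin_cases j <;> simp [Matrix.mul_apply, Fin.sum_univ_two, ha0]
  refine of_invert hH hHz (by rw [← QuotientGroup.mk_mul, hzz]) (x := QuotientGroup.mk x) ?_ ?_
  · rw [mul_inv_eq_iff_eq_mul, ← QuotientGroup.mk_mul, hzx, QuotientGroup.mk_mul, QuotientGroup.mk_inv]
  intro y hy l hl
  obtain ⟨Y, rfl⟩ := QuotientGroup.mk_surjective y
  have hy' : (Y * (x * x))⁻¹ * (x * x * Y) ∈ center (SpecialLinearGroup (Fin 2) F) := QuotientGroup.eq.1 hy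
  obtain ⟨c, hc2, hc⟩ := mem_center.1 hy'
  rw [Fintype.card_fin] at hc2
  have hc1 : x * x * Y = (Y * (x * x)) * ((Y * (x * x))⁻¹ * (x * x * Y)) := by group
  have hc3 := congrArg mt hc1
  rw [mt_mul (Y * (x * x)), hc, mt_mul, mt_mul, mt_mul, mt_mul, mul_smul_comm, mul_one, hx] at hc3
  obtain ⟨A, hA⟩ : ∃ A, A = mt Y := ⟨_, rfl⟩
  have hAd : A.det = 1 := by rw [hA]; exact mt_det Y
  rw [← hA] at hc3
  have e01 := congrFun (congrFun hc3 0) 1
  have e10 := congrFun (congrFun hc3 1) 0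
  simp [Matrix.mul_apply, Fin.sum_univ_two] at e01 e10
  have hcc : c ^ 2 = 1 := hc2
  have hc8 : a ^ 4 ≠ c := by
    intro h5
    have h6 : (c - 1) * (c + 1) = 0 := by linear_combination hcc
    rcases mul_eq_zero.1 h6 with h6 | h6
    · exact ha4 (h5.trans (sub_eq_zero.1 h6))
    · exact ha4' (h5.trans (eq_neg_of_add_eq_zero_left h6))
  have hai : a * a⁻¹ = 1 := mul_inv_cancel₀ ha0
  have h01 : A 0 1 = 0 := by
    have h6 : (a ^ 4 - c) * A 0 1 = 0 := by
      have h7 : a * a * (a * a * A 0 1) = a * a * (c * (A 0 1 * (a⁻¹ * a⁻¹))) := by rw [e01]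
      have h8 : a * a * (c * (A 0 1 * (a⁻¹ * a⁻¹))) = c * A 0 1 := by
        field_simp
      rw [h8] at h7
      linear_combination h7
    exact (mul_eq_zero.1 h6).resolve_left (sub_ne_zero.2 hc8)
  have h10 : A 1 0 = 0 := by
    have h6 : (a ^ 4 - c) * A 1 0 = 0 := by
      have h7 : a * a * (a⁻¹ * a⁻¹ * A 1 0) = a * a * (c * (A 1 0 * (a * a))) := by rw [e10]
      have h8 : a * a * (a⁻¹ * a⁻¹ * A 1 0) = A 1 0 := by
        field_simp
      rw [h8] at h7
      linear_combination (-c) * h7 - a ^ 4 * A 1 0 * hcc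
    exact (mul_eq_zero.1 h6).resolve_left (sub_ne_zero.2 hc8)
  have hdet : A 0 0 * A 1 1 = 1 := by
    rw [Matrix.det_fin_two, h01, zero_mul, sub_zero] at hAd
    exact hAd
  -- the odd number `m = (q - 1) / 2`
  obtain ⟨m, hm⟩ : ∃ m, Fintype.card F - 1 = 2 * m := ⟨(Fintype.card F - 1) / 2, by omega⟩
  have hmo : Odd m := by
    rw [← Nat.not_even_iff_odd]
    rintro ⟨s, hs⟩
    omega
  have hA0 : A 0 0 ≠ 0 := left_ne_zero_of_mul_eq_one hdet
  have hpow : (A 0 0 ^ m) ^ 2 = 1 := by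
    rw [← pow_mul, mul_comm m 2, ← hm]
    exact FiniteField.pow_card_sub_one_eq_one _ hA0
  have hp11 : A 1 1 ^ m = A 0 0 ^ m := by
    have h6 : A 0 0 ^ m * A 1 1 ^ m = 1 := by rw [← mul_pow, hdet, one_pow]
    linear_combination (A 0 0 ^ m) * h6 - A 1 1 ^ m * hpow
  have hAdiag : A = Matrix.diagonal ![A 0 0, A 1 1] := by
    ext i j
    fin_cases i <;> fin_cases j <;> simp [h01, h10]
  have hAm : A ^ m = (A 0 0 ^ m) • (1 : Matrix (Fin 2) (Fin 2) F) := by
    rw [hAdiag, Matrix.diagonal_pow, Matrix.smul_one_eq_diagonal]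
    congr 1
    funext j
    fin_cases j
    · simp
    · simp [hp11]
  have hYm : (QuotientGroup.mk Y : ProjectiveSpecialLinearGroup (Fin 2) F) ^ m = 1 := by
    rw [← QuotientGroup.mk_pow]
    refine mk_eq_one (c := A 0 0 ^ m) ?_
    rw [mt_pow, ← hA, hAm]
  have hcop : (2 ^ l).Coprime m := by
    apply Nat.Coprime.pow_left
    rw [Nat.coprime_two_left]
    exact hmo
  have h6 := Nat.dvd_gcd (orderOf_dvd_of_pow_eq_one hl) (orderOf_dvd_of_pow_eq_one hYm)
  rw [hcop] at h6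
  exact orderOf_eq_one_iff.1 (Nat.dvd_one.1 h6)

/-- **`PSL_2(q)`** -/
theorem meet2_PSL2 (h : Odd (Fintype.card F)) (h4 : 4 ≤ Fintype.card F) :
    MeetIn 2 (ProjectiveSpecialLinearGroup (Fin 2) F) := by
  by_cases h3 : Fintype.card F % 4 = 3
  · exact meet_three h h3 h4
  · obtain ⟨i, hi⟩ := FiniteField.isSquare_neg_one_iff.2 h3
    exact meet_one h hi.symm

/-- **`PSL_3(q)`** -/
theorem meet2_PSL3 (h : Odd (Fintype.card F)) : MeetIn 2 (ProjectiveSpecialLinearGroup (Fin 3) F) := by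
  classical
  have h2 := two_ne_zero_of_odd h
  let z : SpecialLinearGroup (Fin 3) F := ⟨Matrix.diagonal ![-1, 1, -1], by
    rw [Matrix.det_diagonal, Fin.prod_univ_three]
    show (-1 : F) * 1 * -1 = 1
    ring⟩
  have hz : mt z = Matrix.diagonal ![-1, 1, -1] := rfl
  have hzz' : mt (z * z) = (1 : F) • (1 : Matrix (Fin 3) (Fin 3) F) := by
    rw [mt_mul, hz, Matrix.diagonal_mul_diagonal, Matrix.smul_one_eq_diagonal]
    congr 1
    funext j
    fin_cases j <;> simp
  have hzz : (QuotientGroup.mk (z * z) : ProjectiveSpecialLinearGroup (Fin 3) F) = 1 := mk_eq_one hzz'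
  have hz1 : (QuotientGroup.mk z : ProjectiveSpecialLinearGroup (Fin 3) F) ≠ 1 := mk_ne_one fun c hc => by
    rw [hz] at hc
    have h0 := congrFun (congrFun hc 0) 0
    have h1 := congrFun (congrFun hc 1) 1
    simp at h0 h1
    rw [← h1] at h0
    apply h2
    linear_combination -h0
  have ho : orderOf (QuotientGroup.mk z : ProjectiveSpecialLinearGroup (Fin 3) F) = 2 := by
    refine orderOf_eq_prime ?_ hz1
    rw [pow_two, ← QuotientGroup.mk_mul, hzz]
  have hq : Fintype.card F = (Fintype.card F - 1) + 1 := by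
    have := Fintype.card_pos (α := F)
    omega
  have hidx := Cfsg.Agent.GTwoOdd.CentPSL.index h2 hq _ ho
  refine meet_of_diag h (Equiv.refl (Fin 3)) (by norm_num) (ε := ![-1, 1, -1]) ?_ hz hzz
    (H := centralizer {(QuotientGroup.mk z : ProjectiveSpecialLinearGroup (Fin 3) F)}) ?_ ?_
  · intro x y hxy
    fin_cases x <;> fin_cases y <;> simp at hxy ⊢
  · rw [hidx, ← hq, ← even_iff_two_dvd, Nat.not_even_iff_odd]
    refine Odd.mul h.pow ?_
    obtain ⟨s, hs⟩ := h
    rw [show Fintype.card F - 1 = 2 * s by omega]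
    exact ⟨2 * s ^ 2 + 3 * s + 1, by ring⟩
  · intro w hw
    exact (mem_centralizer_iff.1 hw _ rfl)

end two

end Cfsg.Agent.H597.MeetZ
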