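import Cfsg.Agent.H597.MeetZ

/-!
# `MeetIn 2` for `PSL`: the shift (S5760, task 1917)
-/

set_option autoImplicit false

namespace Cfsg.Agent.H597.MeetZ

open Subgroup Cfsg.Agent.H68.MeetB Matrix Polynomial

section shift

variable {ι : Type*} [Fintype ι] [DecidableEq ι] {F : Type*} [Field F] {n : ℕ}

/-- the shift -/
def shift (F : Type*) [Field F] (e : ι ≃ Fin n) : Matrix ι ι F :=
  Matrix.of fun x y => if ((e x : ℕ) = e y + 1) then 1 else 0

theorem shift_pow (e : ι ≃ Fin n) (k : ℕ) (x y : ι) :
    (shift F e ^ k) x y = if ((e x : ℕ) = e y + k) then 1 else 0 := by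
  induction k generalizing x y with
  | zero =>
    rw [pow_zero, Matrix.one_apply, add_zero]
    by_cases h : x = y
    · rw [if_pos h, if_pos (by rw [h])]
    · rw [if_neg h, if_neg fun h1 => h (e.injective (Fin.ext h1))]
  | succ k ih =>
    rw [pow_succ, Matrix.mul_apply]
    by_cases hy : (e y : ℕ) + 1 < n
    · rw [Finset.sum_eq_single (e.symm ⟨e y + 1, hy⟩)]
      · rw [ih, shift, Matrix.of_apply, e.apply_symm_apply]
        rw [if_pos (rfl : ((⟨e y + 1, hy⟩ : Fin n) : ℕ) = e y + 1), mul_one]
        congr 1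
        show ((e x : ℕ) = (e y + 1) + k) = _
        rw [add_assoc, add_comm 1 k]
      · intro w _ hw
        rw [shift, Matrix.of_apply, if_neg, mul_zero]
        intro h1
        apply hw
        rw [Equiv.eq_symm_apply]
        exact Fin.ext h1
      · intro h
        exact absurd (Finset.mem_univ _) h
    · rw [if_neg (by have := (e x).2; omega)]
      refine Finset.sum_eq_zero fun w _ => ?_
      rw [shift, Matrix.of_apply, if_neg (by have := (e w).2; omega), mul_zero]

theorem shift_nil (e : ι ≃ Fin n) : shift F e ^ n = 0 := by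
  ext x y
  rw [shift_pow, if_neg (by have := (e x).2; omega), Matrix.zero_apply]

theorem shift_cyc (e : ι ≃ Fin n) (hn : 0 < n) (v : ι → F) :
    ∃ f : F[X], (aeval (shift F e) f) *ᵥ (Pi.single (e.symm ⟨0, hn⟩) 1) = v := by
  refine ⟨∑ x, C (v x) * X ^ ((e x : ℕ)), ?_⟩
  rw [map_sum]
  funext x'
  rw [Matrix.mulVec_single_one, Matrix.col_apply, Matrix.sum_apply, Finset.sum_eq_single x']
  · rw [map_mul, map_pow, aeval_X, aeval_C, Algebra.algebraMap_eq_smul_one, smul_mul_assoc, one_mul, Matrix.smul_apply,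
      shift_pow, e.apply_symm_apply, if_pos (by simp), smul_eq_mul, mul_one]
  · intro x _ hx
    rw [map_mul, map_pow, aeval_X, aeval_C, Algebra.algebraMap_eq_smul_one, smul_mul_assoc, one_mul, Matrix.smul_apply,
      shift_pow, e.apply_symm_apply, if_neg, smul_zero]
    intro h1
    apply hx
    apply e.injective
    apply Fin.ext
    have h2 : (e x' : ℕ) = 0 + (e x : ℕ) := h1
    omega
  · intro h
    exact absurd (Finset.mem_univ _) h

theorem shift_ker (e : ι ≃ Fin n) (hn : 0 < n) :
    shift F e *ᵥ (Pi.single (e.symm ⟨n - 1, by omega⟩) 1) = 0 := by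
  funext x
  rw [Matrix.mulVec_single_one, Matrix.col_apply, shift, Matrix.of_apply, e.apply_symm_apply, if_neg, Pi.zero_apply]
  have h1 := (e x).2
  show ¬ ((e x : ℕ) = (n - 1) + 1)
  omega

/-- **`MeetIn 2` for `PSL`, diagonal `z`.** -/
theorem meet_of_diag [Fintype F] (hF : Odd (Fintype.card F)) (e : ι ≃ Fin n) (hn : 0 < n) {ε : ι → F}
    (hε : ∀ x y, (e x : ℕ) = e y + 1 → ε x = -ε y) {z : SpecialLinearGroup ι F} (hz : mt z = Matrix.diagonal ε)
    (hzz : (QuotientGroup.mk (z * z) : ProjectiveSpecialLinearGroup ι F) = 1)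
    {H : Subgroup (ProjectiveSpecialLinearGroup ι F)} (hH : ¬ 2 ∣ H.index)
    (hHz : ∀ h ∈ H, (QuotientGroup.mk z : ProjectiveSpecialLinearGroup ι F) * h = h * QuotientGroup.mk z) :
    MeetIn 2 (ProjectiveSpecialLinearGroup ι F) := by
  obtain ⟨p, hp⟩ := CharP.exists F
  have hpp : Fact p.Prime := ⟨(CharP.char_is_prime_or_zero F p).resolve_right (CharP.char_ne_zero_of_finite F p)⟩
  have hp2 : p ≠ 2 := by
    rintro rfl
    obtain ⟨k, -, hk⟩ := FiniteField.card F 2
    rw [hk] at hF
    exact (Nat.not_even_iff_odd.2 hF) (Nat.even_pow.2 ⟨even_two, k.2.ne'⟩)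
  refine meet_of_nil hp2 (shift_nil e) ?_ hzz (shift_cyc e hn) ?_ (shift_ker e hn) hH hHz
  · rw [hz]
    ext x y
    rw [Matrix.diagonal_mul, Matrix.neg_apply, Matrix.mul_diagonal, shift, Matrix.of_apply]
    by_cases h : (e x : ℕ) = e y + 1
    · rw [if_pos h, hε x y h]
      ring
    · rw [if_neg h]
      ring
  · intro h
    have h1 := congrFun h (e.symm ⟨n - 1, by omega⟩)
    rw [Pi.single_eq_same] at h1
    exact one_ne_zero h1

end shift

section reindex

variable {ι κ : Type*} [Fintype ι] [DecidableEq ι] [Fintype κ] [DecidableEq κ] {F : Type*} [Field F]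

/-- reindexing `SL` -/
def slEquiv (e : ι ≃ κ) : SpecialLinearGroup ι F ≃* SpecialLinearGroup κ F where
  toFun A := ⟨Matrix.reindex e e A.1, by rw [Matrix.det_reindex_self]; exact A.2⟩
  invFun A := ⟨Matrix.reindex e.symm e.symm A.1, by rw [Matrix.det_reindex_self]; exact A.2⟩
  left_inv A := by
    apply Subtype.ext
    ext i j
    simp
  right_inv A := by
    apply Subtype.ext
    ext i j
    simp
  map_mul' A B := by
    apply Subtype.ext
    show Matrix.reindex e e (A.1 * B.1) = Matrix.reindex e e A.1 * Matrix.reindex e e B.1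
    rw [Matrix.reindex_apply, Matrix.reindex_apply, Matrix.reindex_apply, Matrix.submatrix_mul_equiv]

/-- reindexing `PSL` -/
def pslEquiv (e : ι ≃ κ) : ProjectiveSpecialLinearGroup ι F ≃* ProjectiveSpecialLinearGroup κ F :=
  QuotientGroup.congr _ _ (slEquiv e) (by
    ext x
    constructor
    · rintro ⟨y, hy, rfl⟩
      rw [mem_center_iff]
      intro g
      have h := mem_center_iff.1 hy ((slEquiv e).symm g)
      have h1 := congrArg (slEquiv e) h
      rw [map_mul, map_mul, (slEquiv e).apply_symm_apply] at h1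
      exact h1
    · intro hx
      refine ⟨(slEquiv e).symm x, ?_, (slEquiv e).apply_symm_apply x⟩
      show _ ∈ center _
      rw [mem_center_iff]
      intro g
      have h := mem_center_iff.1 hx (slEquiv e g)
      have h1 := congrArg (slEquiv e).symm h
      rw [map_mul, map_mul, (slEquiv e).symm_apply_apply] at h1
      exact h1)

end reindex

end Cfsg.Agent.H597.MeetZ
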