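import Cfsg.Agent.H68.MeetBase

/-!
# `MeetIn 2` from an involution inverting a regular unipotent element (S5760, task 1917)

* `of_invert` : `H ≤ T` of odd index centralised by `z`, `z² = 1`, `z x z⁻¹ = x⁻¹` and no nontrivial element of order a
  power of two commutes with `x²` : `MeetIn 2 T`;
* `exists_of_isConj` : such an `H` exists if all involutions are conjugate;
* `meet_of_nil` : `T = PSL ι F`, `z N = - N z` with `N` nilpotent with a cyclic vector.
-/

set_option autoImplicit false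

namespace Cfsg.Agent.H597.MeetZ

open Subgroup Cfsg.Agent.H68.MeetB Matrix Polynomial

section abs

variable {T : Type*} [Group T] [Finite T]

theorem of_invert {H : Subgroup T} (hH : ¬ 2 ∣ H.index) {z x : T} (hz : ∀ h ∈ H, z * h = h * z) (hzz : z * z = 1)
    (hzx : z * x * z⁻¹ = x⁻¹) (hC : ∀ y : T, y * (x * x) = (x * x) * y → ∀ k : ℕ, y ^ 2 ^ k = 1 → y = 1) :
    MeetIn 2 T := by
  have : Fact (Nat.Prime 2) := ⟨Nat.prime_two⟩
  obtain ⟨P⟩ : Nonempty (Sylow 2 H) := inferInstance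
  refine MeetIn.of_one ((P : Subgroup H).map H.subtype) (P.isPGroup'.map _) ?_ ⟨x, ?_⟩
  · rw [Subgroup.index_map, (MonoidHom.ker_eq_bot_iff _).2 H.subtype_injective, sup_bot_eq, H.range_subtype]
    intro h1
    rcases Nat.prime_two.dvd_mul.1 h1 with h2 | h2
    · exact P.not_dvd_index h2
    · exact hH h2
  · intro y hy hxy
    have hyH : y ∈ H := by
      obtain ⟨w, -, rfl⟩ := hy
      exact w.2
    have hxyH : x * y * x⁻¹ ∈ H := by
      obtain ⟨w, -, hw⟩ := hxy
      rw [← hw]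
      exact w.2
    obtain ⟨k, hk⟩ := (P.isPGroup'.map H.subtype) ⟨y, hy⟩
    refine hC y ?_ k (by simpa using congrArg Subtype.val hk)
    have h1 := hz y hyH
    have h2 := hz _ hxyH
    have hzi : z⁻¹ = z := inv_eq_of_mul_eq_one_left hzz
    have h3 : z * x = x⁻¹ * z := by rw [← hzx]; group
    -- `y` commutes with `x⁻¹ z x`
    have h4 : (x⁻¹ * z * x) * y = y * (x⁻¹ * z * x) := by
      calc (x⁻¹ * z * x) * y = x⁻¹ * (z * (x * y * x⁻¹)) * x := by group
        _ = x⁻¹ * ((x * y * x⁻¹) * z) * x := by rw [h2]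
        _ = _ := by group
    have h5 : x⁻¹ * z * x = z * (x * x) := by rw [← h3]; group
    rw [h5] at h4
    -- cancel `z`
    have h6 : z * (y * (x * x)) = z * ((x * x) * y) := by
      calc z * (y * (x * x)) = (z * y) * (x * x) := by group
        _ = y * z * (x * x) := by rw [h1]
        _ = y * (z * (x * x)) := by group
        _ = z * (x * x) * y := h4.symm
        _ = _ := by group
    exact mul_left_cancel h6

theorem exists_of_isConj (h2 : 2 ∣ Nat.card T) {z : T}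
    (hc : ∀ w : T, orderOf w = 2 → IsConj w z) :
    ∃ H : Subgroup T, ¬ 2 ∣ H.index ∧ ∀ h ∈ H, z * h = h * z := by
  have : Fact (Nat.Prime 2) := ⟨Nat.prime_two⟩
  obtain ⟨P⟩ : Nonempty (Sylow 2 T) := inferInstance
  have hne : Nontrivial (P : Subgroup T) := by
    rw [← Finite.one_lt_card_iff_nontrivial]
    have h3 : 2 ∣ Nat.card (P : Subgroup T) := P.dvd_card_of_dvd_card h2
    exact lt_of_lt_of_le (by norm_num) (Nat.le_of_dvd Nat.card_pos h3)
  have hcn := IsPGroup.center_nontrivial P.isPGroup'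
  have hdvd : 2 ∣ Nat.card (center (P : Subgroup T)) := by
    obtain ⟨n, hn⟩ := (P.isPGroup'.to_subgroup (center (P : Subgroup T))).exists_card_eq
    rw [hn]
    rcases Nat.eq_zero_or_pos n with h0 | h0
    · subst h0
      have := Finite.one_lt_card_iff_nontrivial.2 hcn
      rw [hn, pow_zero] at this
      exact absurd this (lt_irrefl 1)
    · exact dvd_pow_self 2 h0.ne'
  obtain ⟨c, hc2⟩ := exists_prime_orderOf_dvd_card' 2 hdvd
  have hw : orderOf (((c : (P : Subgroup T)) : T)) = 2 := by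
    rw [Subgroup.orderOf_coe, Subgroup.orderOf_coe, hc2]
  obtain ⟨g, hg⟩ := isConj_iff.1 (hc _ hw)
  refine ⟨(P : Subgroup T).map (MulAut.conj g).toMonoidHom, ?_, ?_⟩
  · rw [Subgroup.index_map_of_bijective (f := (MulAut.conj g).toMonoidHom) (MulAut.conj g).bijective]
    exact P.not_dvd_index
  · rintro _ ⟨h, hh, rfl⟩
    have h3 := mem_center_iff.1 c.2 ⟨h, hh⟩
    have h4 : h * ((c : (P : Subgroup T)) : T) = ((c : (P : Subgroup T)) : T) * h := congrArg Subtype.val h3
    change z * (g * h * g⁻¹) = g * h * g⁻¹ * z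
    rw [← hg]
    calc g * ((c : (P : Subgroup T)) : T) * g⁻¹ * (g * h * g⁻¹) = g * (((c : (P : Subgroup T)) : T) * h) * g⁻¹ := by group
      _ = g * (h * ((c : (P : Subgroup T)) : T)) * g⁻¹ := by rw [h4]
      _ = _ := by group

end abs

section mat

variable {ι : Type*} [Fintype ι] [DecidableEq ι] {F : Type*} [Field F]

/-- a matrix commuting with `N` is a polynomial in `N`, if `N` has a cyclic vector -/
theorem eq_aeval {N y : Matrix ι ι F} {e : ι → F} (hcyc : ∀ v : ι → F, ∃ f : F[X], (aeval N f) *ᵥ e = v)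
    (hy : y * N = N * y) : ∃ f : F[X], y = aeval N f := by
  obtain ⟨f, hf⟩ := hcyc (y *ᵥ e)
  refine ⟨f, ?_⟩
  apply Matrix.ext_of_mulVec_single
  intro i
  obtain ⟨g, hg⟩ := hcyc (Pi.single i 1)
  rw [← hg, mulVec_mulVec, mulVec_mulVec]
  have h1 : y * aeval N g = aeval N g * y := by
    have hc : Commute y N := hy
    have h2 : ∀ h : F[X], Commute y (aeval N h) := by
      intro h
      induction h using Polynomial.induction_on' with
      | add a b ha hb => rw [map_add]; exact ha.add_right hb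
      | monomial k a =>
        rw [aeval_monomial]
        refine Commute.mul_right ?_ (hc.pow_right k)
        exact (Algebra.commutes a y).symm
    exact h2 g
  rw [h1, ← mulVec_mulVec, ← hf, mulVec_mulVec, ← map_mul, ← map_mul, mul_comm]

theorem aeval_pow_char {p : ℕ} [Fact p.Prime] [CharP F p] {N : Matrix ι ι F} {j : ℕ} (hN : N ^ p ^ j = 0) (f : F[X]) :
    ∃ c : F, (aeval N f) ^ p ^ j = c • (1 : Matrix ι ι F) := by
  obtain ⟨g, hg⟩ : ∃ g : F[X], f = X * g + C (f.coeff 0) := by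
    exact ⟨f.divX, by rw [mul_comm, Polynomial.divX_mul_X_add]⟩
  refine ⟨(f.coeff 0) ^ p ^ j, ?_⟩
  rw [← map_pow, hg, add_pow_char_pow, mul_pow, map_add, map_mul, map_pow, aeval_X, hN, zero_mul, zero_add, ← C_pow,
    aeval_C, Algebra.algebraMap_eq_smul_one]
  simp

theorem one_sub_pow {p : ℕ} [Fact p.Prime] [CharP F p] {N : Matrix ι ι F} {j : ℕ} (hN : N ^ p ^ j = 0) :
    (1 - N) ^ p ^ j = 1 := by
  have h1 : (1 - N) = aeval N (1 - X : F[X]) := by rw [map_sub, map_one, aeval_X]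
  rw [h1, ← map_pow, sub_pow_char_pow, map_sub, map_pow, map_pow, aeval_X, hN, map_one, one_pow, sub_zero]

/-- the matrix of an element of `SL` -/
def mt (A : SpecialLinearGroup ι F) : Matrix ι ι F := A.1

theorem mt_mul (A B : SpecialLinearGroup ι F) : mt (A * B) = mt A * mt B := rfl

theorem mt_one : mt (1 : SpecialLinearGroup ι F) = 1 := rfl

theorem mt_det (A : SpecialLinearGroup ι F) : (mt A).det = 1 := A.2

theorem mt_inv_mul (A : SpecialLinearGroup ι F) : mt A⁻¹ * mt A = 1 := by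
  rw [← mt_mul, inv_mul_cancel, mt_one]

theorem mt_pow (A : SpecialLinearGroup ι F) (k : ℕ) : mt (A ^ k) = mt A ^ k := by
  induction k with
  | zero => rw [pow_zero, pow_zero, mt_one]
  | succ k ih => rw [pow_succ, pow_succ, mt_mul, ih]

theorem mem_center {A : SpecialLinearGroup ι F} : A ∈ center (SpecialLinearGroup ι F) ↔
    ∃ c : F, c ^ Fintype.card ι = 1 ∧ mt A = c • (1 : Matrix ι ι F) := by
  rw [Matrix.SpecialLinearGroup.mem_center_iff]
  refine exists_congr fun c => and_congr_right fun _ => ?_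
  rw [Matrix.scalar_apply, ← Matrix.smul_one_eq_diagonal]
  exact eq_comm

/-- an element of `SL` which is a scalar matrix -/
theorem mk_eq_one {Y : SpecialLinearGroup ι F} {c : F} (h : mt Y = c • (1 : Matrix ι ι F)) :
    (QuotientGroup.mk Y : ProjectiveSpecialLinearGroup ι F) = 1 := by
  refine (QuotientGroup.eq_one_iff _).2 (mem_center.2 ⟨c, ?_, h⟩)
  have h1 := mt_det Y
  rw [h, det_smul, det_one, mul_one] at h1
  exact h1

/-- **`MeetIn 2` for `PSL`.** -/
theorem meet_of_nil [Fintype F] {p : ℕ} [hp : Fact p.Prime] [CharP F p] (hp2 : p ≠ 2)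
    {z : SpecialLinearGroup ι F} {N : Matrix ι ι F} {k : ℕ} (hN : N ^ k = 0)
    (hzN : mt z * N = -(N * mt z))
    (hzz : (QuotientGroup.mk (z * z) : ProjectiveSpecialLinearGroup ι F) = 1) {e e0 : ι → F}
    (hcyc : ∀ v : ι → F, ∃ f : F[X], (aeval N f) *ᵥ e = v) (he0 : e0 ≠ 0) (hNe : N *ᵥ e0 = 0)
    {H : Subgroup (ProjectiveSpecialLinearGroup ι F)} (hH : ¬ 2 ∣ H.index)
    (hHz : ∀ h ∈ H, (QuotientGroup.mk z : ProjectiveSpecialLinearGroup ι F) * h = h * QuotientGroup.mk z) :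
    MeetIn 2 (ProjectiveSpecialLinearGroup ι F) := by
  classical
  have h20 : (2 : F) ≠ 0 := by
    intro h
    have h1 : ((2 : ℕ) : F) = 0 := by exact_mod_cast h
    rw [CharP.cast_eq_zero_iff F p 2] at h1
    exact hp2 ((Nat.prime_dvd_prime_iff_eq hp.out Nat.prime_two).1 h1)
  -- a large power of `p`
  obtain ⟨j, hj⟩ : ∃ j : ℕ, k ≤ p ^ j := ⟨k, (Nat.lt_pow_self hp.out.one_lt).le⟩
  have hNP : N ^ p ^ j = 0 := pow_eq_zero_of_le hj hN
  set P := p ^ j with hP
  have hPodd : Odd P := (hp.out.odd_of_ne_two hp2).pow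
  have hP0 : P ≠ 0 := pow_ne_zero _ hp.out.ne_zero
  -- the units `1 - N` and `1 + N`
  obtain ⟨u, hu⟩ : IsUnit (1 - N) := IsNilpotent.isUnit_one_sub ⟨k, hN⟩
  set zu : GL ι F := SpecialLinearGroup.toGL z with hzu
  have hzuc : (zu : Matrix ι ι F) = mt z := rfl
  have hzi : (zu : Matrix ι ι F) * ((zu⁻¹ : GL ι F) : Matrix ι ι F) = 1 := by
    rw [← Units.val_mul, mul_inv_cancel, Units.val_one]
  have hzN1 : (zu : Matrix ι ι F) * N * ((zu⁻¹ : GL ι F) : Matrix ι ι F) = -N := by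
    rw [hzuc, hzN, neg_mul, mul_assoc, ← hzuc, hzi, mul_one]
  obtain ⟨u', hu'⟩ : ∃ u' : GL ι F, u' = u := ⟨u, rfl⟩
  have huc : (u' : Matrix ι ι F) = 1 - N := by rw [hu']; exact hu
  obtain ⟨v, hv⟩ : ∃ v : GL ι F, v = zu * u' * zu⁻¹ := ⟨_, rfl⟩
  have hvc : (v : Matrix ι ι F) = 1 + N := by
    rw [hv, Units.val_mul, Units.val_mul, huc, mul_sub, mul_one, sub_mul, hzi, hzN1, sub_neg_eq_add]
  have hzv : zu * v * zu⁻¹ = u' := by
    apply Units.ext
    rw [Units.val_mul, Units.val_mul, hvc, huc, mul_add, mul_one, add_mul, hzi, hzN1]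
    exact (sub_eq_add_neg 1 N).symm
  have huv : u' * v = v * u' := by
    apply Units.ext
    rw [Units.val_mul, Units.val_mul, hvc, huc]
    noncomm_ring
  obtain ⟨X0, hX0⟩ : ∃ X0 : GL ι F, X0 = v * u'⁻¹ := ⟨_, rfl⟩
  have hdet : (X0 : Matrix ι ι F).det = 1 := by
    have h1 : (X0 : Matrix ι ι F) * (u' : Matrix ι ι F) = (v : Matrix ι ι F) := by
      rw [← Units.val_mul, hX0, inv_mul_cancel_right]
    have h2 : (v : Matrix ι ι F).det = (u' : Matrix ι ι F).det := by
      rw [hv, Units.val_mul, Units.val_mul, det_mul, det_mul, mul_right_comm, ← det_mul, hzi, det_one, one_mul]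
    have h3 := congrArg Matrix.det h1
    rw [det_mul, h2] at h3
    have h4 : (u' : Matrix ι ι F).det ≠ 0 := (Matrix.isUnit_iff_isUnit_det _).1 u'.isUnit |>.ne_zero
    exact mul_right_cancel₀ h4 (h3.trans (one_mul _).symm)
  obtain ⟨Xs, hXs⟩ : ∃ Xs : SpecialLinearGroup ι F, SpecialLinearGroup.toGL Xs = X0 :=
    ⟨⟨(X0 : Matrix ι ι F), hdet⟩, Units.ext rfl⟩
  have hinj : Function.Injective (SpecialLinearGroup.toGL : SpecialLinearGroup ι F → GL ι F) := by
    intro a b hab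
    exact Subtype.ext (congrArg Units.val hab)
  have hzX : z * Xs * z⁻¹ = Xs⁻¹ := by
    apply hinj
    rw [map_mul, map_mul, map_inv, map_inv, hXs, ← hzu, hX0]
    calc zu * (v * u'⁻¹) * zu⁻¹ = (zu * v * zu⁻¹) * (zu * u' * zu⁻¹)⁻¹ := by group
      _ = u' * v⁻¹ := by rw [hzv, ← hv]
      _ = (v * u'⁻¹)⁻¹ := by group
  -- `X0 ^ P = 1`
  have huP : u' ^ P = 1 := by
    apply Units.ext
    rw [Units.val_pow_eq_pow_val, huc, one_sub_pow hNP, Units.val_one]
  have hvP : v ^ P = 1 := by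
    rw [hv, conj_pow, huP, mul_one, mul_inv_cancel]
  have hXP : X0 ^ P = 1 := by
    rw [hX0, Commute.mul_pow (show Commute v u'⁻¹ from (Commute.inv_right huv.symm)), hvP, inv_pow, huP, inv_one,
      mul_one]
  obtain ⟨M, hM⟩ : ∃ M : Matrix ι ι F, M = (X0 : Matrix ι ι F) := ⟨_, rfl⟩
  have hMs : mt Xs = M := by
    rw [hM, ← hXs]
    rfl
  have hMu : M * (1 - N) = 1 + N := by
    rw [← hvc, ← huc, hM, ← Units.val_mul, hX0, inv_mul_cancel_right]
  have huM : (1 - N) * M = 1 + N := by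
    have h1 : u' * X0 = v := by rw [hX0, ← mul_assoc, huv, mul_inv_cancel_right]
    rw [← hvc, ← huc, hM, ← Units.val_mul, h1]
  have hMP : M ^ P = 1 := by
    rw [hM, ← Units.val_pow_eq_pow_val, hXP, Units.val_one]
  have hMe : M *ᵥ e0 = e0 := by
    have h1 : (M * (1 - N)) *ᵥ e0 = (1 + N) *ᵥ e0 := by rw [hMu]
    rw [← mulVec_mulVec, sub_mulVec, add_mulVec, one_mulVec, hNe, sub_zero, add_zero] at h1
    exact h1
  refine of_invert hH hHz (by rw [← QuotientGroup.mk_mul, hzz]) (x := (QuotientGroup.mk Xs)) ?_ ?_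
  · rw [← QuotientGroup.mk_mul, ← QuotientGroup.mk_inv, ← QuotientGroup.mk_mul, hzX, QuotientGroup.mk_inv]
  intro y hy l hl
  obtain ⟨Y, rfl⟩ := QuotientGroup.mk_surjective y
  have hy' : (Y * (Xs * Xs))⁻¹ * (Xs * Xs * Y) ∈ center (SpecialLinearGroup ι F) := QuotientGroup.eq.1 hy
  obtain ⟨c, -, hc⟩ := mem_center.1 hy'
  have hc1 : Xs * Xs * Y = (Y * (Xs * Xs)) * ((Y * (Xs * Xs))⁻¹ * (Xs * Xs * Y)) := by group
  obtain ⟨Ym, hYm⟩ : ∃ Ym : Matrix ι ι F, Ym = mt Y := ⟨_, rfl⟩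
  have hc2 : M * M * Ym = c • (Ym * (M * M)) := by
    have h1 := congrArg mt hc1
    rw [mt_mul (Y * (Xs * Xs)), hc, mt_mul, mt_mul, mt_mul, mt_mul, mul_smul_comm, mul_one, hMs, ← hYm] at h1
    exact h1
  -- `c = 1`
  have hYi : mt Y⁻¹ * Ym = 1 := by rw [hYm, mt_inv_mul]
  have hw0 : Ym *ᵥ e0 ≠ 0 := by
    intro h
    apply he0
    have h1 : mt Y⁻¹ *ᵥ (Ym *ᵥ e0) = 0 := by rw [h, mulVec_zero]
    rwa [mulVec_mulVec, hYi, one_mulVec] at h1
  obtain ⟨w, hw⟩ : ∃ w : ι → F, w = Ym *ᵥ e0 := ⟨_, rfl⟩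
  rw [← hw] at hw0
  have hMMe : (M * M) *ᵥ e0 = e0 := by rw [← mulVec_mulVec, hMe, hMe]
  have hMMw : (M * M) *ᵥ w = c • w := by
    have h1 : (M * M * Ym) *ᵥ e0 = (c • (Ym * (M * M))) *ᵥ e0 := by rw [hc2]
    rw [smul_mulVec, ← mulVec_mulVec (M := M * M) (N := Ym), ← mulVec_mulVec (M := Ym) (N := M * M), hMMe, ← hw] at h1
    exact h1
  have hpw : ∀ i : ℕ, ((M * M) ^ i) *ᵥ w = c ^ i • w := by
    intro i
    induction i with
    | zero => rw [pow_zero, pow_zero, one_mulVec, one_smul]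
    | succ i ih => rw [pow_succ, ← mulVec_mulVec, hMMw, mulVec_smul, ih, smul_smul, pow_succ, mul_comm]
  have hcP : c ^ P = 1 := by
    have h1 := hpw P
    rw [← pow_two, ← pow_mul, mul_comm 2 P, pow_mul, hMP, one_pow, one_mulVec] at h1
    obtain ⟨i, hi⟩ : ∃ i, w i ≠ 0 := by
      by_contra hcon
      push Not at hcon
      exact hw0 (funext hcon)
    have h2 := congrFun h1 i
    rw [Pi.smul_apply, smul_eq_mul] at h2
    exact mul_right_cancel₀ hi (h2.symm.trans (one_mul _).symm)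
  have hc3 : c = 1 := by
    have h1 : (c - 1) ^ P = 0 := by rw [hP, sub_pow_char_pow, ← hP, hcP, one_pow, sub_self]
    exact sub_eq_zero.1 ((pow_eq_zero_iff hP0).1 h1)
  rw [hc3, one_smul] at hc2
  -- `Y` commutes with `M`
  have hcMM : Commute Ym (M * M) := hc2.symm
  obtain ⟨s, hs⟩ := hPodd
  have hcM : Commute Ym M := by
    have h1 : M = (M * M) ^ (s + 1) := by
      rw [← pow_two, ← pow_mul, show 2 * (s + 1) = P + 1 by omega, pow_succ, hMP, one_mul]
    rw [h1]
    exact hcMM.pow_right _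
  -- `Y` commutes with `N`
  have hcN : Ym * N = N * Ym := by
    have h1 : (M + 1) * (1 - N) = (2 : ℕ) • (1 : Matrix ι ι F) := by
      rw [add_mul, hMu, one_mul, two_smul]
      abel
    have h2 : (1 - N) * (M + 1) = (2 : ℕ) • (1 : Matrix ι ι F) := by
      rw [mul_add, huM, mul_one, two_smul]
      abel
    have h3 : Ym * (M + 1) = (M + 1) * Ym := by
      rw [mul_add, add_mul, hcM.eq, mul_one, one_mul]
    have h4 : (2 : ℕ) • (Ym * (1 - N)) = (2 : ℕ) • ((1 - N) * Ym) := by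
      calc (2 : ℕ) • (Ym * (1 - N)) = ((1 - N) * (M + 1)) * (Ym * (1 - N)) := by
            rw [h2, smul_mul_assoc, one_mul]
        _ = (1 - N) * ((M + 1) * Ym) * (1 - N) := by noncomm_ring
        _ = (1 - N) * (Ym * (M + 1)) * (1 - N) := by rw [h3]
        _ = (1 - N) * Ym * ((M + 1) * (1 - N)) := by noncomm_ring
        _ = _ := by rw [h1, mul_smul_comm, mul_one]
    have h5 : Ym * (1 - N) = (1 - N) * Ym := by
      ext a b
      have h6 := congrFun (congrFun h4 a) b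
      rw [Matrix.smul_apply, Matrix.smul_apply, nsmul_eq_mul, nsmul_eq_mul] at h6
      exact mul_left_cancel₀ (by exact_mod_cast h20) h6
    rw [mul_sub, sub_mul, mul_one, one_mul] at h5
    exact sub_right_injective h5
  obtain ⟨f, hf⟩ := eq_aeval hcyc hcN
  obtain ⟨c', hc'⟩ := aeval_pow_char (p := p) (j := j) hNP f
  have hYP : (QuotientGroup.mk Y : ProjectiveSpecialLinearGroup ι F) ^ P = 1 := by
    rw [← QuotientGroup.mk_pow]
    refine mk_eq_one (c := c') ?_
    rw [mt_pow, ← hYm, hf]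
    exact hc'
  have hcop : (2 ^ l).Coprime P := by
    apply Nat.Coprime.pow_left
    rw [Nat.coprime_two_left]
    exact ⟨s, hs⟩
  have h1 := orderOf_dvd_of_pow_eq_one hYP
  have h2 := orderOf_dvd_of_pow_eq_one hl
  have h3 := Nat.dvd_gcd h2 h1
  rw [hcop] at h3
  exact orderOf_eq_one_iff.1 (Nat.dvd_one.1 h3)

end mat

end Cfsg.Agent.H597.MeetZ
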